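import Cfsg.Agent.H759.FusNormal
import Cfsg.Agent.H802.FusCentric
import Cfsg.Agent.H802.FusNormalSub

/-!
# Saturated subsystems over strongly closed subgroups of constrained systems are constrained (helper751)
-/

set_option autoImplicit false

namespace Cfsg.Agent.H751

open Cfsg Cfsg.FusionSystem

variable {Ω : Type*} [Group Ω] {S T : Subgroup Ω} {F : FusionSystem S} {p : ℕ}

/-- The maps of `F` into a normal subgroup `Q` of `F` preserve the images of characteristic subgroups of `Q`. -/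
theorem stronglyClosed_map_char [Finite S] {Q : Subgroup Ω} (hQ : F.IsNormal Q) (U : Subgroup Q)
    [hU : U.Characteristic] : F.StronglyClosed (U.map Q.subtype) := by
  have hle : U.map Q.subtype ≤ Q := Subgroup.map_subtype_le U
  refine ⟨hle.trans hQ.1, fun R hR φ hφ x => ?_⟩
  obtain ⟨ψ, hψ, h1, h2⟩ := hQ.2 R φ hφ
  have hfin : Finite Q := H802.finite_of_le hQ.1
  have hinj := F.injective_of_mem hψ
  have hQQ : ∀ x : Q, ψ (Subgroup.inclusion le_sup_right x) ∈ Q := fun x => by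
    have h1 : ψ (Subgroup.inclusion le_sup_right x) ∈ (Q.subgroupOf (R ⊔ Q)).map ψ :=
      ⟨_, x.2, rfl⟩
    rwa [h2] at h1
  let f : Q →* Q := (ψ.comp (Subgroup.inclusion le_sup_right)).codRestrict Q hQQ
  have hf : Function.Bijective f := by
    refine Finite.injective_iff_bijective.1 fun x y hxy => ?_
    have h1 : ψ (Subgroup.inclusion le_sup_right x) = ψ (Subgroup.inclusion le_sup_right y) :=
      congrArg Subtype.val hxy
    exact Subgroup.inclusion_injective _ (hinj h1)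
  have hfix := hU.fixed (MulEquiv.ofBijective f hf)
  obtain ⟨u, hu, hux⟩ := hR x.2
  have h3 : u ∈ U.comap (MulEquiv.ofBijective f hf).toMonoidHom := by rw [hfix]; exact hu
  refine ⟨f u, h3, ?_⟩
  show ψ (Subgroup.inclusion le_sup_right u) = φ x
  rw [← h1 x]
  congr 1
  exact Subtype.ext hux

theorem stronglyClosed_of_subsystem {E : FusionSystem T} (hEF : E.IsSubsystemOf F) {U : Subgroup Ω}
    (hU : F.StronglyClosed U) (hUT : U ≤ T) : E.StronglyClosed U :=
  ⟨hUT, fun R hR φ hφ x => hU.2 R hR φ (hEF R hφ) x⟩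

/-- **A saturated subsystem over a strongly closed subgroup of a constrained system is constrained.** -/
theorem isConstrained_of_subsystem [Finite S] [Fact p.Prime] (hS : IsPGroup p S)
    (hF : F.IsConstrained p) (hT : F.StronglyClosed T) {E : FusionSystem T}
    (hE : E.IsSaturated p) (hEF : E.IsSubsystemOf F) : E.IsConstrained p := by
  obtain ⟨hsat, Q₁, hQ₁n, hQ₁c⟩ := hF
  have hQn : F.IsNormal F.core := H759.isNormal_core
  set Q := F.core with hQdef
  have hQc : F.IsCentric Q := H802.isCentric_of_le hQ₁c (H759.IsNormal.le_core hQ₁n) hQn.1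
  have hQsc : F.StronglyClosed Q := H759.IsNormal.stronglyClosed hQn
  have hfT : Finite T := H802.finite_of_le hT.1
  have hTp : IsPGroup p T := hS.to_le hT.1
  have hfQ : Finite Q := H802.finite_of_le hQn.1
  have hQp : IsPGroup p Q := hS.to_le hQn.1
  have hQ₀sc : F.StronglyClosed (Q ⊓ T) := H759.StronglyClosed.inf hQsc hT
  have hSQ : S ≤ Subgroup.normalizer (Q : Set Ω) := H759.StronglyClosed.le_normalizer hQsc
  have hST : S ≤ Subgroup.normalizer (T : Set Ω) := H759.StronglyClosed.le_normalizer hT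
  -- `[Q, T] ≤ Q ∩ T`
  have hQT : ⁅Q, T⁆ ≤ Q ⊓ T := by
    rw [Subgroup.commutator_le]
    intro x hx y hy
    refine ⟨?_, ?_⟩
    · have h1 := (Subgroup.mem_normalizer_iff.1 (hSQ (hT.1 hy)) x⁻¹).1 (inv_mem hx)
      have h2 := mul_mem hx h1
      rw [commutatorElement_def]
      simpa [mul_assoc] using h2
    · have h1 := (Subgroup.mem_normalizer_iff.1 (hST (hQn.1 hx)) y).1 hy
      have h2 := mul_mem h1 (inv_mem hy)
      rw [commutatorElement_def]
      simpa [mul_assoc] using h2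
  -- `Q ∩ T` is normal in `E`
  have hQ₀n : E.IsNormal (Q ⊓ T) := by
    have hnil : Group.IsNilpotent Q := hQp.isNilpotent
    obtain ⟨n, hn⟩ := Q.isNilpotent_iff_lowerCentralSeries.1 hnil
    refine H759.isNormal_of_chain hTp hE n (fun i => Q.lowerCentralSeries (n - i) ⊓ T) ?_ ?_ ?_ ?_
    · simp [hn]
    · simp
    · intro i _
      have h1 := stronglyClosed_map_char hQn ((⊤ : Subgroup Q).lowerCentralSeries (n - i))
      rw [Subgroup.top_subtype_lowerCentralSeries] at h1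
      exact stronglyClosed_of_subsystem hEF (H759.StronglyClosed.inf h1 hT) inf_le_right
    · intro i hi
      have e : n - i = (n - (i + 1)) + 1 := by omega
      show ⁅Q ⊓ T, Q.lowerCentralSeries (n - (i + 1)) ⊓ T⁆ ≤ Q.lowerCentralSeries (n - i) ⊓ T
      rw [e, Subgroup.commutator_le]
      rintro x ⟨hxQ, hxT⟩ y ⟨hu, huT⟩
      refine ⟨?_, ?_⟩
      · rw [Subgroup.lowerCentralSeries_succ, Subgroup.commutator_comm]
        exact Subgroup.commutator_mem_commutator hxQ hu
      · rw [commutatorElement_def]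
        exact T.mul_mem (T.mul_mem (T.mul_mem hxT huT) (T.inv_mem hxT)) (T.inv_mem huT)
  -- the centralizer `C = C_T(Q ∩ T)`
  set C : Subgroup Ω := T ⊓ Subgroup.centralizer ((Q ⊓ T : Subgroup Ω) : Set Ω) with hC
  have hCT : C ≤ T := inf_le_left
  have hCsc : F.StronglyClosed C := by
    refine ⟨hCT.trans hT.1, fun R hR φ hφ x => ?_⟩
    obtain ⟨ψ, hψ, h1, h2⟩ := hQn.2 R φ hφ
    refine ⟨H759.StronglyClosed.apply_mem hT hφ (hCT (hR x.2)), ?_⟩
    refine Subgroup.mem_centralizer_iff.2 ?_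
    rintro y ⟨hyQ, hyT⟩
    have hy : y ∈ (Q.subgroupOf (R ⊔ Q)).map ψ := by rw [h2]; exact hyQ
    obtain ⟨z, hz, rfl⟩ := hy
    have hzQ : (z : Ω) ∈ Q := hz
    have hzT : (z : Ω) ∈ T := H759.StronglyClosed.mem_of_apply_mem hT hψ hyT
    have h3 := Subgroup.mem_centralizer_iff.1 (hR x.2).2 z ⟨hzQ, hzT⟩
    rw [← h1 x, ← map_mul, ← map_mul]
    congr 1
    exact Subtype.ext h3
  have hCC : ⁅C, C⁆ ≤ C := by
    rw [Subgroup.commutator_le]
    intro x hx y hy
    rw [commutatorElement_def]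
    exact mul_mem (mul_mem (mul_mem hx hy) (inv_mem hx)) (inv_mem hy)
  have hcent : ⁅Q ⊓ T, C⁆ = ⊥ := by
    rw [Subgroup.commutator_eq_bot_iff_le_centralizer, Subgroup.le_centralizer_iff]
    exact inf_le_right
  have hCn : F.IsNormal C := by
    refine H759.isNormal_of_chain hS hsat 2
      (fun i => if i = 0 then ⊥ else if i = 1 then C ⊓ Q else C) (by simp) (by simp) ?_ ?_
    · intro i _
      by_cases h0 : i = 0
      · simp only [h0, if_true]; exact H759.StronglyClosed.bot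
      · by_cases h1 : i = 1
        · simp only [h1, if_true]; exact H759.StronglyClosed.inf hCsc hQsc
        · simp only [if_neg h0, if_neg h1]; exact hCsc
    · intro i hi
      have hi' : i = 0 ∨ i = 1 := by omega
      rcases hi' with rfl | rfl
      · simp only [if_true]
        have h1 : C ⊓ Q ≤ Q ⊓ T := le_inf inf_le_right (inf_le_left.trans hCT)
        refine (Subgroup.commutator_mono le_rfl h1).trans ?_
        rw [Subgroup.commutator_comm, hcent]
      · show ⁅C, C⁆ ≤ C ⊓ Q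
        refine le_inf hCC ?_
        -- three subgroups lemma
        have h1 : ⁅⁅Q, C⁆, C⁆ = ⊥ := by
          rw [eq_bot_iff]
          refine (Subgroup.commutator_mono ((Subgroup.commutator_mono le_rfl hCT).trans hQT)
            le_rfl).trans hcent.le
        have h2 : ⁅⁅C, Q⁆, C⁆ = ⊥ := by rw [Subgroup.commutator_comm C Q]; exact h1
        have h3 : ⁅⁅C, C⁆, Q⁆ = ⊥ := Subgroup.commutator_commutator_eq_bot_of_rotate h2 h1
        have h4 := Subgroup.commutator_eq_bot_iff_le_centralizer.1 h3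
        have h5 : ⁅C, C⁆ ≤ centralizerIn S Q :=
          le_inf (hCC.trans (hCT.trans hT.1)) h4
        exact h5.trans (hQc.2 Q (H802.isConj_refl F hQn.1))
  have hCQ : C ≤ Q := H759.IsNormal.le_core hCn
  refine ⟨hE, Q ⊓ T, hQ₀n, inf_le_right, ?_⟩
  rintro R ⟨φ, hφ, rfl⟩
  have hr : φ.range = Q ⊓ T := by
    have h1 : φ.range ≤ Q ⊓ T := by
      rintro _ ⟨x, rfl⟩
      exact hQ₀n.1 |> fun _ => (H759.IsNormal.stronglyClosed hQ₀n).2 _ le_rfl φ hφ x
    have hf : Finite (Q ⊓ T : Subgroup Ω) := H802.finite_of_le inf_le_right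
    refine Subgroup.eq_of_le_of_card_ge h1 ?_
    rw [← H802.isConj_card_eq (H802.isConj_range hφ)]
  rw [hr]
  exact le_inf hCQ hCT

/-! ### Groups -/

section Groups

open Cfsg.Agent.H802

/-- Constrained fusion systems of a subgroup, read in the subgroup itself. -/
theorem isConstrained_subgroupOf [Finite Ω] [Fact p.Prime] {H T : Subgroup Ω} (hT : SylIn p T H)
    (h : (fusionSystemOfSubgroup H T hT.le).IsConstrained p) :
    (groupFusionSystem (T.subgroupOf H)).IsConstrained p := by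
  obtain ⟨T', hT'⟩ := hT.exists_sylow
  obtain ⟨hsat, Q, hQn, hQc⟩ := h
  have hQT : Q ≤ T := hQn.1
  have hQH : Q ≤ H := hQT.trans hT.le
  refine ⟨by rw [← hT']; exact groupFusionSystem_isSaturated T', Q.subgroupOf H,
    ⟨Subgroup.comap_mono hQT, ?_⟩, Subgroup.comap_mono hQT, ?_⟩
  · rintro P φ ⟨hP, hφT, g, hg⟩
    have hmem : ∀ x ∈ P.map H.subtype, (g : Ω) * x * (g : Ω)⁻¹ ∈ T := by
      rintro _ ⟨x, hx, rfl⟩
      have h1 := hφT ⟨x, hx⟩
      rw [hg] at h1
      exact h1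
    have hPT : P.map H.subtype ≤ T := by
      rintro _ ⟨x, hx, rfl⟩
      exact hP hx
    obtain ⟨ψ, ⟨hψ1, hψ2, k, hk, hkψ⟩, h2, h3⟩ := hQn.2 (P.map H.subtype)
      (conjHom (P.map H.subtype) (g : Ω)) ⟨hPT, fun x => hmem x x.2, g, g.2, fun x => rfl⟩
    have hsup : ∀ x ∈ P ⊔ Q.subgroupOf H, (x : Ω) ∈ P.map H.subtype ⊔ Q := by
      intro x hx
      have h4 : (x : Ω) ∈ (P ⊔ Q.subgroupOf H).map H.subtype := ⟨x, hx, rfl⟩
      rw [Subgroup.map_sup] at h4
      have h5 : (Q.subgroupOf H).map H.subtype ≤ Q := Subgroup.map_comap_le _ _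
      exact sup_le_sup_left h5 _ h4
    have hleT : P ⊔ Q.subgroupOf H ≤ T.subgroupOf H := sup_le hP (Subgroup.comap_mono hQT)
    refine ⟨conjHom (P ⊔ Q.subgroupOf H) ⟨k, hk⟩, ⟨hleT, fun x => ?_, ⟨k, hk⟩, fun x => rfl⟩,
      fun x => ?_, ?_⟩
    · have h4 := hψ2 ⟨x, hsup x x.2⟩
      rw [hkψ] at h4
      exact h4
    · rw [hg]
      apply Subtype.ext
      have hx : ((x : H) : Ω) ∈ P.map H.subtype := ⟨x, x.2, rfl⟩
      have h4 := h2 ⟨x, hx⟩
      rw [hkψ] at h4
      exact h4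
    · ext y
      constructor
      · rintro ⟨x, hx, rfl⟩
        have hxQ : ((x : H) : Ω) ∈ Q := hx
        have h4 : ψ ⟨x, hsup x x.2⟩ ∈ (Q.subgroupOf (P.map H.subtype ⊔ Q)).map ψ := ⟨_, hxQ, rfl⟩
        rw [h3, hkψ] at h4
        exact h4
      · intro hy
        have hyQ : (y : Ω) ∈ Q := hy
        have h4 : (y : Ω) ∈ (Q.subgroupOf (P.map H.subtype ⊔ Q)).map ψ := by rw [h3]; exact hyQ
        obtain ⟨x, hx, hxy⟩ := h4
        have hxQ : (x : Ω) ∈ Q := hx
        rw [hkψ] at hxy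
        refine ⟨⟨⟨x, hQH hxQ⟩, (le_sup_right : Q.subgroupOf H ≤ P ⊔ Q.subgroupOf H) hxQ⟩, hxQ, ?_⟩
        exact Subtype.ext hxy
  · rintro R ⟨φ, ⟨hP, hφT, g, hg⟩, rfl⟩ z ⟨hzT, hz⟩
    have hmem : ∀ x (hx : x ∈ Q), (g : Ω) * x * (g : Ω)⁻¹ ∈ T := by
      intro x hx
      have h1 := hφT ⟨⟨x, hQH hx⟩, hx⟩
      rw [hg] at h1
      exact h1
    have h1 := hQc.2 (conjHom Q (g : Ω)).range
      ⟨conjHom Q (g : Ω), ⟨hQT, fun x => hmem x x.2, g, g.2, fun x => rfl⟩, rfl⟩
    have h2 : (z : Ω) ∈ centralizerIn T (conjHom Q (g : Ω)).range := by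
      refine ⟨hzT, Subgroup.mem_centralizer_iff.2 ?_⟩
      rintro _ ⟨x, rfl⟩
      have h3 := Subgroup.mem_centralizer_iff.1 hz (φ ⟨⟨x, hQH x.2⟩, x.2⟩) ⟨_, rfl⟩
      rw [hg] at h3
      exact congrArg Subtype.val h3
    obtain ⟨x, hx⟩ := h1 h2
    refine ⟨⟨⟨x, hQH x.2⟩, x.2⟩, ?_⟩
    rw [hg]
    exact Subtype.ext hx

/-- **Subnormal subgroups of groups with constrained fusion system.** -/
theorem isConstrained_of_isSubnormal [Finite Ω] [Fact p.Prime] (S : Sylow p Ω)
    (hF : (groupFusionSystem (S : Subgroup Ω)).IsConstrained p) {H : Subgroup Ω}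
    (hH : H.IsSubnormal) :
    ∃ T : Subgroup Ω, T = (S : Subgroup Ω) ⊓ H ∧ ∃ hT : SylIn p T H,
      (fusionSystemOfSubgroup H T hT.le).IsConstrained p := by
  induction hH with
  | top =>
    refine ⟨S, by simp, sylIn_top_of_sylow S, ?_⟩
    rw [← groupFusionSystem_eq]
    exact hF
  | step H K hle _ hN ih =>
    obtain ⟨T, hTeq, hT, hc⟩ := ih
    have hN' : ∀ k ∈ K, ∀ m ∈ H, k * m * k⁻¹ ∈ H := by
      intro k hk m hm
      have := hN.conj_mem ⟨m, hle hm⟩ hm ⟨k, hk⟩
      exact this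
    have h1 := hT.inf_normal hle hN'
    refine ⟨T ⊓ H, by rw [hTeq, inf_assoc, inf_eq_right.2 hle], h1, ?_⟩
    obtain ⟨⟨h2, h3, h4, h5, -⟩, -⟩ := fs_isNormalIn hT hle hN'
    have hfT : Finite T := inferInstance
    exact isConstrained_of_subsystem hT.isPGroup hc h5 h2 h4

end Groups

end Cfsg.Agent.H751
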